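import Cfsg.Agent.H63.ItoThree.Tools
import Cfsg.Agent.H21.Complement

/-!
# Components

An abelian `q`-subgroup `R` with the property that it contains every `q`-element commuting with one
of its non-central elements, together with a `q'`-subgroup `W` on which `N(R) - R` acts without
non-central fixed points. Either `R` is of order `q` modulo the centre or it is weakly closed.
-/

set_option autoImplicit false

namespace Cfsg.Agent.H63.ItoThree

open RankThree

universe u

variable {G : Type u} [Group G]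

/-- A component at the prime `q`. -/
structure Comp (q : ℕ) (R W : Subgroup G) : Prop where
  ab : ∀ a ∈ R, ∀ b ∈ R, Commute a b
  pe : ∀ a ∈ R, PE q a
  zmem : ∀ z ∈ Subgroup.center G, PE q z → z ∈ R
  nc : ∃ a ∈ R, a ∉ Subgroup.center G
  cl : ∀ a ∈ R, a ∉ Subgroup.center G → ∀ g, PE q g → g ∈ C a → g ∈ R
  cop : (Nat.card W).Coprime q
  wnorm : ∀ g ∈ Subgroup.normalizer (R : Set G), ∀ w ∈ W, g * w * g⁻¹ ∈ W
  wnc : ∃ w ∈ W, w ∉ Subgroup.center G
  fix : ∀ g ∈ Subgroup.normalizer (R : Set G), PE q g → g ∉ R → ∀ w ∈ W, w ∈ C g →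
    w ∈ Subgroup.center G

/-- The conjugate of a subgroup. -/
def cjs (h : G) (R : Subgroup G) : Subgroup G := R.map (MulAut.conj h).toMonoidHom

theorem mem_cjs {h g : G} {R : Subgroup G} : g ∈ cjs h R ↔ h⁻¹ * g * h ∈ R := by
  rw [cjs, Subgroup.mem_map]
  constructor
  · rintro ⟨x, hx, rfl⟩
    simpa [mul_assoc] using hx
  · exact fun hg => ⟨_, hg, by simp [mul_assoc]⟩

theorem conj_mem_cjs {h g : G} {R : Subgroup G} : h * g * h⁻¹ ∈ cjs h R ↔ g ∈ R := by
  simp [mem_cjs, mul_assoc]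

theorem mem_normalizer_cjs {h g : G} {R : Subgroup G} :
    g ∈ Subgroup.normalizer (cjs h R : Set G) ↔ h⁻¹ * g * h ∈ Subgroup.normalizer (R : Set G) := by
  rw [Subgroup.mem_normalizer_iff, Subgroup.mem_normalizer_iff]
  constructor
  · intro hg x
    simpa [mem_cjs, mul_assoc] using hg (h * x * h⁻¹)
  · intro hg x
    simpa [mem_cjs, mul_assoc] using hg (h⁻¹ * x * h)

theorem Comp.conj {q : ℕ} {R W : Subgroup G} (hc : Comp q R W) (h : G) :
    Comp q (cjs h R) (cjs h W) where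
  ab a ha b hb := (Commute.conj_iff h⁻¹).1 (by simpa using hc.ab _ (mem_cjs.1 ha) _ (mem_cjs.1 hb))
  pe a ha := by simpa [mul_assoc] using pe_conj (hc.pe _ (mem_cjs.1 ha)) h
  zmem z hz hzq := mem_cjs.2 (by
    rw [Subgroup.mem_center_iff.1 hz h⁻¹, inv_mul_cancel_right]
    exact hc.zmem z hz hzq)
  nc := by
    obtain ⟨a, ha, haZ⟩ := hc.nc
    exact ⟨h * a * h⁻¹, conj_mem_cjs.2 ha, fun e => haZ (conj_mem_center_iff.1 e)⟩
  cl a ha haZ g hg hga := mem_cjs.2 (hc.cl _ (mem_cjs.1 ha)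
    (fun e => haZ (conj_mem_center_iff (g := h⁻¹).1 (by simpa using e))) _
    (by simpa using pe_conj hg h⁻¹) (by simpa using (conj_mem_C_iff (g := h⁻¹)).2 hga))
  cop := by
    rw [cjs, ← Nat.card_congr (Subgroup.equivMapOfInjective W _ (MulEquiv.injective _)).toEquiv]
    exact hc.cop
  wnorm g hg w hw := mem_cjs.2 (by
    have := hc.wnorm _ (mem_normalizer_cjs.1 hg) _ (mem_cjs.1 hw)
    simpa [mul_assoc] using this)
  wnc := by
    obtain ⟨a, ha, haZ⟩ := hc.wnc
    exact ⟨h * a * h⁻¹, conj_mem_cjs.2 ha, fun e => haZ (conj_mem_center_iff.1 e)⟩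
  fix g hg hgq hgR w hw hwg := by
    have h1 := hc.fix _ (mem_normalizer_cjs.1 hg) (by simpa using pe_conj hgq h⁻¹)
      (fun e => hgR (mem_cjs.2 e)) _ (mem_cjs.1 hw)
      (by simpa using (conj_mem_C_iff (g := h⁻¹)).2 hwg)
    exact conj_mem_center_iff (g := h⁻¹).1 (by simpa using h1)

/-- The action of a subgroup normalising `W` on `W` modulo the centre. -/
noncomputable def actMod {R W : Subgroup G} (hn : R ≤ Subgroup.normalizer (W : Set G)) :
    R →* MulAut (W ⧸ (Subgroup.center G).subgroupOf W) where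
  toFun e := QuotientGroup.congr _ _ (H21.conjHom hn e) (by
    ext v
    rw [show (↑(H21.conjHom hn e) : W →* W) = (H21.conjHom hn e).toMonoidHom from rfl,
      Subgroup.mem_map_equiv, Subgroup.mem_subgroupOf, Subgroup.mem_subgroupOf]
    refine Iff.trans ?_ (conj_mem_center_iff (g := (e : G)⁻¹) (x := (v : G)))
    refine iff_of_eq (congrArg (· ∈ Subgroup.center G) ?_)
    have h1 : (e : G) * (((H21.conjHom hn e).symm v : W) : G) * (e : G)⁻¹ = v :=
      congrArg Subtype.val ((H21.conjHom hn e).apply_symm_apply v)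
    conv_rhs => rw [← h1]
    group)
  map_one' := MulEquiv.ext fun x => by
    induction x using QuotientGroup.induction_on
    simp [map_one]
  map_mul' a b := MulEquiv.ext fun x => by
    induction x using QuotientGroup.induction_on
    simp [map_mul]

variable [Finite G]

/-- Components normalising each other. -/
theorem Comp.mutual {q : ℕ} [hq : Fact q.Prime] {R W R' W' : Subgroup G} (hR : Comp q R W)
    (hR' : Comp q R' W') (h1 : R ≤ Subgroup.normalizer (R' : Set G))
    (h2 : R' ≤ Subgroup.normalizer (R : Set G)) (hne : R ≠ R') :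
    (Subgroup.center G).relIndex R' = q := by
  have hinter : ∀ a ∈ R, a ∈ R' → a ∈ Subgroup.center G := fun a ha ha' => by
    by_contra haZ
    exact hne (le_antisymm (fun g hg => hR'.cl a ha' haZ g (hR.pe g hg) (mem_C.2 (hR.ab g hg a ha)))
      fun g hg => hR.cl a ha haZ g (hR'.pe g hg) (mem_C.2 (hR'.ab g hg a ha')))
  have hpow : ∀ b ∈ R', b ^ q ∈ Subgroup.center G := by
    intro b hb
    obtain ⟨a₀, ha₀, ha₀Z⟩ := hR.nc
    obtain ⟨a, haz, haZ, haq⟩ := exists_pow_mem_center (hR.pe a₀ ha₀) ha₀Z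
    have ha : a ∈ R := mem_of_mem_zpowers haz ha₀
    by_contra hbq
    set z := a * b * a⁻¹ * b⁻¹ with hz
    have hzR' : z ∈ R' := R'.mul_mem ((Subgroup.mem_normalizer_iff.1 (h1 ha) b).1 hb) (R'.inv_mem hb)
    have hzR : z ∈ R := by
      have := R.mul_mem ha ((Subgroup.mem_normalizer_iff.1 (h2 hb) a⁻¹).1 (R.inv_mem ha))
      rw [hz]
      simpa [mul_assoc] using this
    have hzZ : z ∈ Subgroup.center G := hinter z hzR hzR'
    have hzc : ∀ g, g * z = z * g := Subgroup.mem_center_iff.1 hzZ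
    have hab : a * b * a⁻¹ = z * b := by rw [hz]; group
    have hiter : ∀ k : ℕ, a ^ k * b * (a ^ k)⁻¹ = z ^ k * b := by
      intro k
      induction k with
      | zero => simp
      | succ k ih =>
        calc a ^ (k + 1) * b * (a ^ (k + 1))⁻¹ = a * (a ^ k * b * (a ^ k)⁻¹) * a⁻¹ := by
              rw [pow_succ']; group
          _ = (a * z ^ k * a⁻¹) * (a * b * a⁻¹) := by rw [ih]; group
          _ = z ^ k * (z * b) := by
              rw [hab, Subgroup.mem_center_iff.1 (pow_mem hzZ k) a, mul_inv_cancel_right]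
          _ = z ^ (k + 1) * b := by rw [← mul_assoc, ← pow_succ]
    have hzq : z ^ q = 1 := by
      have := hiter q
      rw [← Subgroup.mem_center_iff.1 haq b, mul_inv_cancel_right] at this
      exact (mul_eq_right.1 this.symm)
    have hcomm : Commute a (b ^ q) := by
      have e : a * b ^ q * a⁻¹ = b ^ q := by
        rw [← conj_pow, hab, Commute.mul_pow (hzc b).symm, hzq, one_mul]
      exact mul_inv_eq_iff_eq_mul.1 e
    exact haZ (hinter a ha (hR'.cl _ (pow_mem hb q) hbq a (hR.pe a ha) (mem_C.2 hcomm)))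
  have hn : R' ≤ Subgroup.normalizer (W : Set G) := fun b hb => Subgroup.mem_normalizer_iff.2 fun w =>
    ⟨hR.wnorm b (h2 hb) w, fun h => by
      have := hR.wnorm b⁻¹ (inv_mem (h2 hb)) _ h
      simpa [mul_assoc] using this⟩
  set Z' := (Subgroup.center G).subgroupOf R'
  have hker : Z' ≤ (actMod hn).ker := fun b hb => by
    refine MulEquiv.ext fun x => ?_
    induction x using QuotientGroup.induction_on with | _ w => ?_
    refine congrArg QuotientGroup.mk (Subtype.ext ?_)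
    show (b : G) * w * (b : G)⁻¹ = w
    rw [← Subgroup.mem_center_iff.1 (Subgroup.mem_subgroupOf.1 hb) w, mul_inv_cancel_right]
  haveI : IsMulCommutative (R' ⧸ Z') := ⟨⟨fun x y => by
    induction x using QuotientGroup.induction_on with | _ x => ?_
    induction y using QuotientGroup.induction_on with | _ y => ?_
    exact congrArg QuotientGroup.mk (Subtype.ext (hR'.ab x x.2 y y.2).eq)⟩⟩
  obtain ⟨w₀, hw₀, hw₀Z⟩ := hR.wnc
  haveI : Nontrivial (W ⧸ (Subgroup.center G).subgroupOf W) :=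
    ⟨((⟨w₀, hw₀⟩ : W) : W ⧸ (Subgroup.center G).subgroupOf W), 1, fun e =>
      hw₀Z (Subgroup.mem_subgroupOf.1 ((QuotientGroup.eq_one_iff _).1 e))⟩
  haveI : IsCyclic (R' ⧸ Z') := by
    refine H21.isCyclic_of_comm_fpf (QuotientGroup.lift Z' (actMod hn) hker) fun e he k hk => ?_
    induction e using QuotientGroup.induction_on with | _ b => ?_
    induction k using QuotientGroup.induction_on with | _ w => ?_
    have hbZ : (b : G) ∉ Subgroup.center G := fun h => he ((QuotientGroup.eq_one_iff _).2 h)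
    have h3 : ((H21.conjHom hn b w : W) : W ⧸ (Subgroup.center G).subgroupOf W) = w := hk
    have h4 := Subgroup.mem_subgroupOf.1 (QuotientGroup.eq.1 h3.symm)
    have h5 : Commute (b : G) w :=
      commute_of_comm_mem_center hR.cop (hpow b b.2) w.2 (hR.wnorm b (h2 b.2) w w.2) h4
    exact (QuotientGroup.eq_one_iff _).2 (hR.fix b (h2 b.2) (hR'.pe b b.2)
      (fun h => hbZ (hinter b h b.2)) w w.2 (mem_C.2 h5.symm))
  obtain ⟨g, hg⟩ := IsCyclic.exists_generator (α := R' ⧸ Z')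
  have hcard : orderOf g = Nat.card (R' ⧸ Z') := orderOf_eq_card_of_forall_mem_zpowers hg
  have hdvd : orderOf g ∣ q := by
    induction g using QuotientGroup.induction_on with | _ b => ?_
    refine orderOf_dvd_of_pow_eq_one ?_
    rw [← QuotientGroup.mk_pow, QuotientGroup.eq_one_iff]
    exact hpow b b.2
  rcases (Nat.dvd_prime hq.out).1 hdvd with e | e
  · obtain ⟨b, hb, hbZ⟩ := hR'.nc
    have h6 := hg ((⟨b, hb⟩ : R') : R' ⧸ Z')
    rw [orderOf_eq_one_iff.1 e, Subgroup.zpowers_one_eq_bot, Subgroup.mem_bot] at h6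
    exact absurd ((QuotientGroup.eq_one_iff _).1 h6) hbZ
  · exact hcard.symm.trans e

/-- A component which is not a line is normal in every Sylow subgroup containing it. -/
theorem Comp.le_normalizer {q : ℕ} [hq : Fact q.Prime] {R W : Subgroup G} (hR : Comp q R W)
    (hline : (Subgroup.center G).relIndex R ≠ q) (T : Sylow q G) (hT : R ≤ T) :
    (T : Subgroup G) ≤ Subgroup.normalizer (R : Set G) := by
  by_contra hle
  haveI := T.2.isNilpotent
  set N := Subgroup.normalizer (R : Set G)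
  have hlt : N.subgroupOf (T : Subgroup G) < ⊤ :=
    lt_top_iff_ne_top.2 fun e => hle (Subgroup.subgroupOf_eq_top.1 e)
  obtain ⟨h, hh, hhN⟩ := SetLike.exists_of_lt
    (Group.normalizerCondition_of_isNilpotent (N.subgroupOf (T : Subgroup G)) hlt)
  have hhn := Subgroup.mem_normalizer_iff.1 hh
  have hconj : ∀ a ∈ R, (h : G) * a * (h : G)⁻¹ ∈ N ∧ (h : G)⁻¹ * a * h ∈ N := fun a ha => by
    have haN : (⟨a, hT ha⟩ : (T : Subgroup G)) ∈ N.subgroupOf (T : Subgroup G) :=
      Subgroup.mem_subgroupOf.2 (Subgroup.le_normalizer ha)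
    refine ⟨Subgroup.mem_subgroupOf.1 ((hhn _).1 haN), ?_⟩
    have := (hhn (h⁻¹ * ⟨a, hT ha⟩ * h)).2 (by simpa [mul_assoc] using haN)
    exact Subgroup.mem_subgroupOf.1 this
  refine hline ((hR.conj h).mutual hR (fun x hx => ?_) (fun x hx => ?_) fun e => hhN ?_)
  · have := (hconj _ (mem_cjs.1 hx)).1
    simpa [mul_assoc] using this
  · exact mem_normalizer_cjs.2 (hconj x hx).2
  · refine Subgroup.mem_subgroupOf.2 (Subgroup.mem_normalizer_iff.2 fun x => ?_)
    conv_rhs => rw [← e]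
    exact conj_mem_cjs.symm

/-- Components which are not lines are conjugate. -/
theorem Comp.exists_conj {q : ℕ} [hq : Fact q.Prime] {R W R' W' : Subgroup G} (hR : Comp q R W)
    (hR' : Comp q R' W') (hline : (Subgroup.center G).relIndex R ≠ q)
    (hline' : (Subgroup.center G).relIndex R' ≠ q) : ∃ h : G, cjs h R = R' := by
  obtain ⟨T, hT⟩ := (isPGroup_of_pe hR.pe).exists_le_sylow
  obtain ⟨T', hT'⟩ := (isPGroup_of_pe hR'.pe).exists_le_sylow
  obtain ⟨h, hh⟩ := MulAction.exists_smul_eq G T T'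
  have hconj : ∀ x, x ∈ (T' : Subgroup G) ↔ h⁻¹ * x * h ∈ (T : Subgroup G) := fun x => by
    rw [← hh, ← mem_cjs]; rfl
  refine ⟨h, ?_⟩
  by_contra hne
  refine hline' ((hR.conj h).mutual hR' (fun x hx => ?_) (fun x hx => ?_) hne)
  · exact hR'.le_normalizer hline' T' hT' ((hconj x).2 (hT (mem_cjs.1 hx)))
  · exact mem_normalizer_cjs.2 (hR.le_normalizer hline T hT ((hconj x).1 (hT' hx)))

/-- Two lines at different primes cannot both be moved. -/
theorem two_lines {q r : ℕ} [hq : Fact q.Prime] [hr : Fact r.Prime] (hne : q ≠ r)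
    {A B : Subgroup G} {u v : G}
    (hAp : ∀ a ∈ A, PE q a) (hBp : ∀ b ∈ B, PE r b)
    (hAl : (Subgroup.center G).relIndex A = q) (hBl : (Subgroup.center G).relIndex B = r)
    (hu : u ∈ A) (huZ : u ∉ Subgroup.center G) (hv : v ∈ B) (hvZ : v ∉ Subgroup.center G)
    (hAu : A ≤ C u) (hBv : B ≤ C v)
    (hclA : ∀ g ∈ Subgroup.normalizer (A : Set G), PE q g → g ∈ C v → g ∈ A)
    (hclB : ∀ g ∈ Subgroup.normalizer (B : Set G), PE r g → g ∈ C u → g ∈ B)
    {g h : G} (hgA : g ∈ Subgroup.normalizer (A : Set G))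
    (hgB : g ∈ Subgroup.normalizer (B : Set G)) (hgq : PE q g) (hgu : g ∉ C u)
    (hhA : h ∈ Subgroup.normalizer (A : Set G)) (hhB : h ∈ Subgroup.normalizer (B : Set G))
    (hhr : PE r h) (hhv : h ∉ C v) : False := by
  set Z := Subgroup.center G
  have hexp : ∀ (A : Subgroup G) (q : ℕ), q.Prime → Z.relIndex A = q → ∀ u ∈ A, u ∉ Z → ∀ a ∈ A,
      ∃ i : ℕ, (u ^ i)⁻¹ * a ∈ Z := by
    intro A q hq' hl u hu huZ a ha
    have := Fact.mk hq'
    have hu1 : ((⟨u, hu⟩ : A) : A ⧸ Z.subgroupOf A) ≠ 1 := fun e =>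
      huZ (Subgroup.mem_subgroupOf.1 ((QuotientGroup.eq_one_iff _).1 e))
    have := mem_powers_of_prime_card (G := A ⧸ Z.subgroupOf A) (hl : Nat.card (A ⧸ Z.subgroupOf A) = q)
      hu1 (g' := ((⟨a, ha⟩ : A) : A ⧸ Z.subgroupOf A))
    obtain ⟨i, hi⟩ := this
    exact ⟨i, by simpa using Subgroup.mem_subgroupOf.1 (QuotientGroup.eq.1 hi)⟩
  have hclaim : ∀ (A B : Subgroup G) (q r : ℕ) (u v : G), q.Prime → r.Prime → q ≠ r →
      (∀ a ∈ A, PE q a) → (∀ b ∈ B, PE r b) → u ∈ A → v ∈ B → A ≤ C u →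
      (∀ n ∈ Subgroup.normalizer (A : Set G), PE q n → n ∈ C v → n ∈ A) →
      ∀ n ∈ Subgroup.normalizer (A : Set G), n ∈ Subgroup.normalizer (B : Set G) →
      u⁻¹ * (n * u * n⁻¹) ∈ Z → v⁻¹ * (n * v * n⁻¹) ∈ Z → n ∈ C u := by
    intro A B q r u v hq' hr' hne hAp hBp hu hv hAu hclA n hnA hnB hzu hzv
    -- an element of order prime to `p` fixes an element of `p`-power order which it fixes mod `Z`
    have hfix : ∀ (A : Subgroup G) (p : ℕ), p.Prime → (∀ a ∈ A, PE p a) → ∀ u ∈ A,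
        u⁻¹ * (n * u * n⁻¹) ∈ Z → n ∈ Subgroup.normalizer (A : Set G) →
        ∀ m ∈ Subgroup.zpowers n, (orderOf m).Coprime p → Commute m u := by
      intro A p hp' hAp u hu hz hnA m hm hmc
      haveI := Fact.mk hp'
      let K : Subgroup G :=
        { carrier := {m | m ∈ Subgroup.normalizer (A : Set G) ∧ u⁻¹ * (m * u * m⁻¹) ∈ Z}
          one_mem' := ⟨one_mem _, by simp [Z]⟩
          mul_mem' := fun {a b} ha hb => ⟨mul_mem ha.1 hb.1, by
            have e : u⁻¹ * (a * b * u * (a * b)⁻¹) =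
                u⁻¹ * (a * u * a⁻¹) * (a * (u⁻¹ * (b * u * b⁻¹)) * a⁻¹) := by group
            rw [e]
            exact mul_mem ha.2 ((inferInstance : Z.Normal).conj_mem _ hb.2 a)⟩
          inv_mem' := fun {a} ha => ⟨inv_mem ha.1, by
            have e : u⁻¹ * (a⁻¹ * u * a⁻¹⁻¹) =
                a⁻¹ * (u⁻¹ * (a * u * a⁻¹))⁻¹ * a⁻¹⁻¹ := by group
            rw [e]
            exact (inferInstance : Z.Normal).conj_mem _ (inv_mem ha.2) _⟩ }
      have hmK : m ∈ K := mem_of_mem_zpowers hm ⟨hnA, hz⟩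
      set z := u⁻¹ * (m * u * m⁻¹) with hzdef
      have hzA : z ∈ A := mul_mem (inv_mem hu) ((Subgroup.mem_normalizer_iff.1 hmK.1 u).1 hu)
      have hstep : ∀ k : ℕ, m ^ k * u * (m ^ k)⁻¹ = u * z ^ k := by
        intro k
        induction k with
        | zero => simp
        | succ k ih =>
          calc m ^ (k + 1) * u * (m ^ (k + 1))⁻¹ = m * (m ^ k * u * (m ^ k)⁻¹) * m⁻¹ := by
                rw [pow_succ']; group
            _ = m * u * m⁻¹ * (m * z ^ k * m⁻¹) := by rw [ih]; group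
            _ = u * z * z ^ k := by
                rw [Subgroup.mem_center_iff.1 (pow_mem hmK.2 k) m, mul_inv_cancel_right, hzdef]
                group
            _ = u * z ^ (k + 1) := by rw [pow_succ', mul_assoc]
      have hz1 : z = 1 := by
        have := hstep (orderOf m)
        rw [pow_orderOf_eq_one, one_mul, inv_one, mul_one] at this
        exact eq_one_of_pe_coprime (hAp z hzA)
          (hmc.coprime_dvd_left (orderOf_dvd_of_pow_eq_one (mul_eq_left.1 this.symm)))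
      have := hstep 1
      rw [pow_one, hz1, one_pow, mul_one] at this
      exact mul_inv_eq_iff_eq_mul.1 this
    obtain ⟨a, b, ha, hb, hab, haq, hbq⟩ := parts hq' n
    have hav : Commute a v := hfix B r hr' hBp v hv hzv hnB a ha (pe_coprime hq' hr' hne haq)
    have hb' : Commute b u := hfix A q hq' hAp u hu hzu hnA b hb hbq
    have haA : a ∈ A := hclA a (mem_of_mem_zpowers ha hnA) haq (mem_C.2 hav)
    exact hab ▸ mul_mem (hAu haA) (mem_C.2 hb')
  -- `q`-elements act trivially on a line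
  have htriv : ∀ (A : Subgroup G) (q : ℕ), q.Prime → Z.relIndex A = q → ∀ u ∈ A, u ∉ Z →
      ∀ g ∈ Subgroup.normalizer (A : Set G), PE q g → u⁻¹ * (g * u * g⁻¹) ∈ Z := by
    intro A q hq' hl u hu huZ g hg hgq
    have := Fact.mk hq'
    obtain ⟨i, hi⟩ := hexp A q hq' hl u hu huZ _ ((Subgroup.mem_normalizer_iff.1 hg u).1 hu)
    set x := ((⟨u, hu⟩ : A) : A ⧸ Z.subgroupOf A) with hxdef
    have hx : orderOf x = q := by
      refine orderOf_eq_prime (hl ▸ pow_card_eq_one' : x ^ q = 1) fun e =>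
        huZ (Subgroup.mem_subgroupOf.1 ((QuotientGroup.eq_one_iff _).1 e))
    have hiter : ∀ k : ℕ, (u ^ i ^ k)⁻¹ * (g ^ k * u * (g ^ k)⁻¹) ∈ Z := by
      intro k
      induction k with
      | zero => simp [Z]
      | succ k ih =>
        set d := (u ^ i ^ k)⁻¹ * (g ^ k * u * (g ^ k)⁻¹)
        set c := (u ^ i)⁻¹ * (g * u * g⁻¹)
        have e : g ^ (k + 1) * u * (g ^ (k + 1))⁻¹ = u ^ i ^ (k + 1) * (c ^ i ^ k * d) := by
          calc g ^ (k + 1) * u * (g ^ (k + 1))⁻¹ = g * (u ^ i ^ k * d) * g⁻¹ := by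
                rw [show u ^ i ^ k * d = g ^ k * u * (g ^ k)⁻¹ by simp [d], pow_succ']; group
            _ = (g * u * g⁻¹) ^ i ^ k * (g * d * g⁻¹) := by rw [conj_pow]; group
            _ = (u ^ i * c) ^ i ^ k * d := by
                rw [Subgroup.mem_center_iff.1 ih g, mul_inv_cancel_right]; simp [c]
            _ = _ := by
                rw [Commute.mul_pow (Subgroup.mem_center_iff.1 hi (u ^ i) : Commute (u ^ i) c),
                  ← pow_mul, ← pow_succ', mul_assoc]
        rw [e, inv_mul_cancel_left]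
        exact mul_mem (pow_mem hi _) ih
    obtain ⟨k, hk⟩ := hgq
    have h1 := hiter (q ^ k)
    rw [← hk, pow_orderOf_eq_one, one_mul, inv_one, mul_one] at h1
    have h2 : x ^ i ^ q ^ k = x := by
      rw [hk] at h1
      rw [hxdef, ← QuotientGroup.mk_pow]
      exact QuotientGroup.eq.2 (Subgroup.mem_subgroupOf.2 (by simpa using h1))
    have h3 : x ^ i = x := by
      have h4 : (i : ZMod q) ^ q ^ k = i := ZMod.pow_card_pow (i : ZMod q)
      have h5 : i ^ q ^ k ≡ i [MOD q] := (ZMod.natCast_eq_natCast_iff _ _ _).1 (by simpa using h4)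
      exact (pow_eq_pow_iff_modEq.2 (hx ▸ h5.symm)).trans h2
    rw [hxdef, ← QuotientGroup.mk_pow] at h3
    have h6 := Subgroup.mem_subgroupOf.1 (QuotientGroup.eq.1 h3.symm)
    have e : u⁻¹ * (g * u * g⁻¹) = (u⁻¹ * u ^ i) * ((u ^ i)⁻¹ * (g * u * g⁻¹)) := by group
    rw [e]
    exact mul_mem (by simpa using h6) hi
  have hgU := htriv A q hq.out hAl u hu huZ g hgA hgq
  have hhV := htriv B r hr.out hBl v hv hvZ h hhB hhr
  set z := u⁻¹ * (g * u * g⁻¹) with hz
  obtain ⟨i, hi⟩ := hexp A q hq.out hAl u hu huZ _ ((Subgroup.mem_normalizer_iff.1 hhA u).1 hu)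
  obtain ⟨j, hj⟩ := hexp B r hr.out hBl v hv hvZ _ ((Subgroup.mem_normalizer_iff.1 hgB v).1 hv)
  set z' := (u ^ i)⁻¹ * (h * u * h⁻¹) with hz'
  set y := v⁻¹ * (h * v * h⁻¹) with hy
  set y' := (v ^ j)⁻¹ * (g * v * g⁻¹) with hy'
  have key : ∀ (u : G) (g h z z' : G) (i : ℕ), z ∈ Z → z' ∈ Z → g * u * g⁻¹ = u * z →
      h * u * h⁻¹ = u ^ i * z' →
      g * h * u * (g * h)⁻¹ = u ^ i * (z ^ i * z') ∧ h * g * u * (h * g)⁻¹ = u ^ i * (z * z') := by
    intro u g h z z' i hz hz' eg eh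
    constructor
    · calc g * h * u * (g * h)⁻¹ = g * (h * u * h⁻¹) * g⁻¹ := by group
        _ = (g * u * g⁻¹) ^ i * (g * z' * g⁻¹) := by rw [eh, conj_pow]; group
        _ = u ^ i * z ^ i * z' := by
            rw [eg, Subgroup.mem_center_iff.1 hz' g, mul_inv_cancel_right,
              Commute.mul_pow (Subgroup.mem_center_iff.1 hz u : Commute u z)]
        _ = _ := mul_assoc _ _ _
    · calc h * g * u * (h * g)⁻¹ = h * (g * u * g⁻¹) * h⁻¹ := by group
        _ = h * u * h⁻¹ * (h * z * h⁻¹) := by rw [eg]; group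
        _ = u ^ i * z' * z := by rw [eh, Subgroup.mem_center_iff.1 hz h, mul_inv_cancel_right]
        _ = _ := by rw [mul_assoc, Subgroup.mem_center_iff.1 hz z']
  obtain ⟨k1, k2⟩ := key u g h z z' i hgU hi (by rw [hz]; group) (by rw [hz']; group)
  obtain ⟨l1, l2⟩ := key v h g y y' j hhV hj (by rw [hy]; group) (by rw [hy']; group)
  set c := g * h * (h * g)⁻¹ with hc
  have hcN : c ∈ Subgroup.normalizer (A : Set G) ∧ c ∈ Subgroup.normalizer (B : Set G) :=
    ⟨mul_mem (mul_mem hgA hhA) (inv_mem (mul_mem hhA hgA)),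
      mul_mem (mul_mem hgB hhB) (inv_mem (mul_mem hhB hgB))⟩
  have hcu : c * u ^ i * c⁻¹ = u ^ i * (z ^ i * z⁻¹) := by
    have e : c * (h * g * u * (h * g)⁻¹) * c⁻¹ = g * h * u * (g * h)⁻¹ := by rw [hc]; group
    rw [k1, k2] at e
    calc c * u ^ i * c⁻¹
        = c * (u ^ i * (z * z')) * c⁻¹ * (c * (z * z')⁻¹ * c⁻¹) := by group
      _ = u ^ i * (z ^ i * z') * (z * z')⁻¹ := by
          rw [e, Subgroup.mem_center_iff.1 (inv_mem (mul_mem hgU hi)) c, mul_inv_cancel_right]
      _ = _ := by group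
  have hcv : c * v ^ j * c⁻¹ = v ^ j * (y * (y ^ j)⁻¹) := by
    have e : c * (h * g * v * (h * g)⁻¹) * c⁻¹ = g * h * v * (g * h)⁻¹ := by rw [hc]; group
    rw [l1, l2] at e
    calc c * v ^ j * c⁻¹
        = c * (v ^ j * (y ^ j * y')) * c⁻¹ * (c * (y ^ j * y')⁻¹ * c⁻¹) := by group
      _ = v ^ j * (y * y') * (y ^ j * y')⁻¹ := by
          rw [e, Subgroup.mem_center_iff.1 (inv_mem (mul_mem (pow_mem hhV j) hj)) c,
            mul_inv_cancel_right]
      _ = _ := by group
  -- from the powers back to the elements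
  have hback : ∀ (A : Subgroup G) (q : ℕ), q.Prime → (∀ a ∈ A, PE q a) → ∀ u ∈ A, u ∉ Z →
      ∀ (i : ℕ) (h : G), (u ^ i)⁻¹ * (h * u * h⁻¹) ∈ Z → Z.relIndex A = q →
      ∀ c, (u ^ i)⁻¹ * (c * u ^ i * c⁻¹) ∈ Z → u⁻¹ * (c * u * c⁻¹) ∈ Z := by
    intro A q hq' hAp u hu huZ i h hh hl c hcz
    have hiq : u ^ i ∉ Z := fun e => by
      have : h * u * h⁻¹ ∈ Z := by simpa using mul_mem e hh
      exact huZ (conj_mem_center_iff.1 this)
    obtain ⟨l, hl'⟩ := hexp A q hq' hl (u ^ i) (pow_mem hu i) hiq u hu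
    set d := (u ^ i)⁻¹ * (c * u ^ i * c⁻¹)
    set e := ((u ^ i) ^ l)⁻¹ * u
    have e1 : c * u * c⁻¹ = u * d ^ l := by
      calc c * u * c⁻¹ = c * ((u ^ i) ^ l * e) * c⁻¹ := by simp [e]
        _ = (c * u ^ i * c⁻¹) ^ l * (c * e * c⁻¹) := by rw [conj_pow]; group
        _ = (u ^ i * d) ^ l * e := by
            rw [Subgroup.mem_center_iff.1 hl' c, mul_inv_cancel_right]; simp [d]
        _ = (u ^ i) ^ l * d ^ l * e := by
            rw [Commute.mul_pow (Subgroup.mem_center_iff.1 hcz (u ^ i) : Commute (u ^ i) d)]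
        _ = (u ^ i) ^ l * e * d ^ l := by
            rw [mul_assoc, mul_assoc, Subgroup.mem_center_iff.1 hl' (d ^ l)]
        _ = u * d ^ l := by simp [e]
    rw [e1, inv_mul_cancel_left]
    exact pow_mem hcz l
  have hcU := hback A q hq.out hAp u hu huZ i h hi hAl c
    (by rw [hcu, inv_mul_cancel_left]; exact mul_mem (pow_mem hgU i) (inv_mem hgU))
  have hcV := hback B r hr.out hBp v hv hvZ j g hj hBl c
    (by rw [hcv, inv_mul_cancel_left]; exact mul_mem hhV (inv_mem (pow_mem hhV j)))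
  have hcC : c ∈ C u := hclaim A B q r u v hq.out hr.out hne hAp hBp hu hv hAu hclA c hcN.1 hcN.2
    hcU hcV
  have hzi : z ^ i = z := by
    have e : c * u ^ i * c⁻¹ = u ^ i := mul_inv_eq_iff_eq_mul.2 ((mem_C.1 hcC).pow_right i).eq
    rw [hcu] at e
    exact mul_inv_eq_one.1 (mul_eq_left.1 e)
  have hz1 : z ≠ 1 := fun e => hgu (mem_C.2 (mul_inv_eq_iff_eq_mul.1 (inv_mul_eq_one.1 e).symm))
  obtain ⟨n, hn⟩ := hAp z (mul_mem (inv_mem hu) ((Subgroup.mem_normalizer_iff.1 hgA u).1 hu))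
  have hmod : i ≡ 1 [MOD q] := by
    have h1 : i ≡ 1 [MOD q ^ n] := hn ▸ pow_eq_pow_iff_modEq.1 (by rw [hzi, pow_one])
    refine h1.of_dvd (dvd_pow_self q fun e => hz1 ?_)
    rw [e, pow_zero] at hn
    exact orderOf_eq_one_iff.1 hn
  have hhu : u⁻¹ * (h * u * h⁻¹) ∈ Z := by
    have e : u⁻¹ * (h * u * h⁻¹) = (u⁻¹ * u ^ i) * z' := by rw [hz']; group
    rw [e]
    refine mul_mem ?_ hi
    have hx : ((⟨u, hu⟩ : A) : A ⧸ Z.subgroupOf A) ^ i = (⟨u, hu⟩ : A) := by
      conv_rhs => rw [← pow_one ((⟨u, hu⟩ : A) : A ⧸ Z.subgroupOf A)]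
      exact pow_eq_pow_iff_modEq.2 (hmod.of_dvd
        ((orderOf_dvd_natCard _).trans (dvd_of_eq hAl)))
    rw [← QuotientGroup.mk_pow] at hx
    simpa using Subgroup.mem_subgroupOf.1 (QuotientGroup.eq.1 hx.symm)
  exact hhv (hclaim B A r q v u hr.out hq.out hne.symm hBp hAp hv hu hBv hclB h hhB hhA hhV hhu)

end Cfsg.Agent.H63.ItoThree
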